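import Cfsg.Agent.SelfCentralNoncyclic.Structure

/-!
Simple groups with self-centralizing non-cyclic subgroups: the possible Sylow 2-subgroups.
-/

set_option autoImplicit false
set_option linter.style.haveILetI false

namespace CfsgLib.SelfCentralNC

open CfsgLib.TwoGroup

universe u

variable {G : Type u} [Group G] [Finite G] [IsSimpleGroup G]

theorem SCN.sylow_two_frame (h : SCN G) (hna : ¬ IsMulCommutative G) (T : Sylow 2 G) :
    (∃ m, 1 ≤ m ∧ Nonempty (↥(T : Subgroup G) ≃* DihedralGroup (2 ^ m))) ∨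
      ∃ m, 3 ≤ m ∧ Nonempty (Frame ↥(T : Subgroup G) (2 ^ m) (-1 + half m) 0) := by
  haveI : Fact (Nat.Prime 2) := ⟨Nat.prime_two⟩
  have heven := h.two_dvd_card hna
  have hTnc : ¬ IsCyclic ↥(T : Subgroup G) := by
    intro hc
    have hmin : (Nat.card G).minFac = 2 := (Nat.minFac_eq_two_iff _).2 heven
    have hcomp := IsCyclic.isComplement' hmin hc
    rcases (MonoidHom.normal_ker (MonoidHom.transferSylow T (hc.normalizer_le_centralizer hmin))).eq_bot_or_eq_top
      with e | e <;> rw [e] at hcomp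
    · rw [Subgroup.isComplement'_bot_left] at hcomp
      haveI := hc
      haveI : IsCyclic G := isCyclic_of_surjective ((T : Subgroup G).subtype) fun g =>
        ⟨⟨g, hcomp ▸ Subgroup.mem_top g⟩, rfl⟩
      exact hna ⟨⟨fun a b => IsCyclic.commGroup.mul_comm a b⟩⟩
    · rw [Subgroup.isComplement'_top_left] at hcomp
      exact T.ne_bot_of_dvd_card heven hcomp
  by_cases hm : IsMulCommutative ↥(T : Subgroup G)
  · left
    obtain ⟨hc, he⟩ := (h.subgroup (T : Subgroup G)).card_comm_pgroup T.2 (fun a b => hm.is_comm.comm a b) hTnc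
    haveI : Nontrivial ↥(T : Subgroup G) := Finite.one_lt_card_iff_nontrivial.1 (by rw [hc]; norm_num)
    haveI : IsKleinFour ↥(T : Subgroup G) :=
      ⟨by rw [hc]; norm_num, Monoid.exponent_eq_prime_iff Nat.prime_two |>.2 fun a ha =>
        orderOf_eq_prime (he a) ha⟩
    haveI : IsKleinFour (DihedralGroup (2 ^ 1)) := (inferInstance : IsKleinFour (DihedralGroup 2))
    exact ⟨1, le_rfl, IsKleinFour.nonempty_mulEquiv⟩
  obtain ⟨n, hn⟩ := IsPGroup.iff_card.1 T.2
  have h3 : 3 ≤ n := by
    by_contra hlt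
    apply hm
    rcases (show n = 0 ∨ n = 1 ∨ n = 2 by omega) with rfl | rfl | rfl
    · exact absurd (show IsCyclic ↥(T : Subgroup G) from by
        haveI := (Nat.card_eq_one_iff_unique.1 (by rw [hn, pow_zero] : Nat.card ↥(T : Subgroup G) = 1)).1
        infer_instance) hTnc
    · exact absurd (isCyclic_of_prime_card (p := 2) hn) hTnc
    · exact IsPGroup.isMulCommutative_of_card_eq_prime_sq hn
  have hcls := (Cfsg.Agent.S3919.result hm n hn).1 (h.subgroup (T : Subgroup G))
  have key : IsMaxClassType ↥(T : Subgroup G) :=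
    (isMaxClassType_of_index_commutator T.2 (index_commutator_of_lowerCentralSeries hn h3 hcls)).resolve_left
      fun h4 => by
        rw [hn] at h4
        have := Nat.pow_right_injective (le_refl 2) (show 2 ^ n = 2 ^ 2 from h4)
        omega
  obtain ⟨m, hm2, hF | hF | ⟨hm3, F⟩⟩ := key
  · obtain ⟨F⟩ := hF
    exact .inl ⟨m, by omega, F.nonempty_mulEquiv_dihedral⟩
  · exfalso
    obtain ⟨F⟩ := hF
    obtain ⟨k, rfl⟩ : ∃ k, m = k + 2 := ⟨m - 2, by omega⟩
    obtain ⟨e⟩ := F.nonempty_mulEquiv_quaternion (m := 2 ^ (k + 1))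
      (by rw [← pow_succ']) (natCast_half (k + 2)).symm
    have hz := Cfsg.Agent.S0201.result T k e fun N hN hodd => by
      refine hN.eq_bot_or_eq_top.resolve_right fun htop => ?_
      rw [htop, Subgroup.card_top] at hodd
      exact (Nat.not_odd_iff_even.2 (even_iff_two_dvd.2 heven)) hodd
    rcases (inferInstance : (Subgroup.center G).Normal).eq_bot_or_eq_top with e' | e'
    · rw [e', Subgroup.card_bot] at hz; omega
    · exact hna ⟨⟨fun a b => Subgroup.mem_center_iff.1 (e' ▸ Subgroup.mem_top b) a⟩⟩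
  · exact .inr ⟨m, hm3, F⟩

omit [IsSimpleGroup G] in
/-- With a frame `y² = 1` the centralizer of the central rotation involution is the Sylow group. -/
theorem SCN.centralizer_of_frame (h : SCN G) (T : Sylow 2 G) {m : ℕ} (hm : 1 ≤ m) {r : ZMod (2 ^ m)}
    (F : Frame ↥(T : Subgroup G) (2 ^ m) r 0) (hr : r * half m = half m) :
    orderOf (F.e (half m) : G) = 2 ∧
    (∀ x ∈ (T : Subgroup G), x * (F.e (half m) : G) = (F.e (half m) : G) * x) ∧
    Subgroup.centralizer ({(F.e (half m) : G)} : Set G) = (T : Subgroup G) := by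
  have ht : orderOf (F.e (half m)) = 2 := orderOf_eq_two_of_sq
    (by rw [F.e_mul_e, half_add_half hm, F.map_zero]) (fun e => half_ne_zero hm (F.e_eq_one.1 e))
  have hz : ∀ x ∈ (T : Subgroup G), x * (F.e (half m) : G) = (F.e (half m) : G) * x := by
    intro x hx
    obtain ⟨i, hi | hi⟩ := F.cover ⟨x, hx⟩
    · have := (F.comm_e i (half m)).eq
      rw [← hi] at this
      exact congrArg Subtype.val this
    · have : (⟨x, hx⟩ : ↥(T : Subgroup G)) * F.e (half m) = F.e (half m) * ⟨x, hx⟩ := by
        rw [hi, F.ey_mul_e, hr, F.e_mul_ey, add_comm]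
      exact congrArg Subtype.val this
  refine ⟨by rw [Subgroup.orderOf_coe]; exact ht, hz, ?_⟩
  haveI := F.isCyclic_rot
  refine h.centralizer_eq_sylow T (by rw [Subgroup.orderOf_coe]; exact ht) (F.e (half m)).2 hz
    (F.rot.map (T : Subgroup G).subtype) ?_ ?_ ?_ ?_ (F.y).2 ?_ ?_
  · exact Subgroup.map_subtype_le _
  · exact isCyclic_of_surjective _
      (Subgroup.equivMapOfInjective F.rot _ (T : Subgroup G).subtype_injective).surjective
  · exact ⟨_, F.e_mem_rot _, rfl⟩
  · rw [F.card_eq, Subgroup.card_map_of_injective (T : Subgroup G).subtype_injective, F.card_rot]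
  · rw [Subgroup.orderOf_coe]
    exact orderOf_eq_two_of_sq (by rw [F.y_sq, F.map_zero]) (fun e => F.y_ne 0 (by rw [F.map_zero, e]))
  · exact fun e => F.y_ne (half m) (Subtype.ext e.symm)

end CfsgLib.SelfCentralNC
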