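import Cfsg.Agent.TwoGroup.TwoPow
import Cfsg.Agent.CentralizerFour.Characters
import Cfsg.Agent.BrauerSuzukiWall.Arith
import Cfsg.Agent.Blocks.PrimeGram.SimpleOrder
import Cfsg.Agent.Chars.Basic
import Mathlib

/-!
No simple group has a semidihedral centralizer of an involution: the exceptional characters
attached to the cyclic subgroup of index two give a contradiction.
-/

set_option autoImplicit false
set_option linter.style.haveILetI false

namespace CfsgLib.SelfCentralNC

open CfsgLib.Chars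
open Cfsg (IrrCharacter classInner charDegree)
open CfsgLib.TwoGroup (half half_add_half half_ne_zero neg_half half_mul_cases two_mul_eq_zero_iff
  add_self_eq_zero_iff' two_pow_eq_zero two_pow_ne_zero two_mul_half)
open CfsgLib.CentralizerFour (sum_irr_mul_conj_eq_card)
open scoped ComplexConjugate

universe u

variable {G : Type u} [Group G] {m : ℕ}

/-- The semidihedral multiplier. -/
abbrev sdr (m : ℕ) : ZMod (2 ^ m) := -1 + half m

/-- The centralizer of `e (half m)` is semidihedral over the image of `e`. -/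
structure SDData (e : ZMod (2 ^ m) → G) (y : G) : Prop where
  three : 3 ≤ m
  map_add : ∀ i j, e (i + j) = e i * e j
  inj : Function.Injective e
  y_ne : ∀ i, e i ≠ y
  conj_y : ∀ i, y * e i = e (sdr m * i) * y
  cent : ∀ g : G, g * e (half m) = e (half m) * g → ∃ i, g = e i ∨ g = e i * y

namespace SDData

theorem half_sq (hm : 2 ≤ m) : half m * half m = 0 := by
  rw [half, ← pow_add]; exact two_pow_eq_zero m (by omega)

theorem sdr_half (hm : 2 ≤ m) : sdr m * half m = half m := by
  rw [sdr, add_mul, half_sq hm, neg_one_mul, add_zero, neg_half (by omega)]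

theorem sdr_sdr (hm : 2 ≤ m) (k : ZMod (2 ^ m)) : sdr m * (sdr m * k) = k := by
  have : sdr m * sdr m = 1 := by
    have h1 := half_sq hm
    have h2 := two_mul_half (n := m) (by omega)
    linear_combination h1 - h2
  rw [← mul_assoc, this, one_mul]

theorem half_ne_two (hm : 3 ≤ m) : half m ≠ 2 := by
  intro h
  have h1 : (2 : ZMod (2 ^ m)) ^ (m - 2) * half m = 0 := by
    rw [half, ← pow_add]; exact two_pow_eq_zero m (by omega)
  rw [h, ← pow_succ, show m - 2 + 1 = m - 1 by omega] at h1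
  exact two_pow_ne_zero (by omega) h1

theorem fixed_iff (hm : 3 ≤ m) {k : ZMod (2 ^ m)} :
    sdr m * k = k ↔ k = 0 ∨ k = half m := by
  constructor
  · intro h
    have h2 : half m * k = 2 * k := by linear_combination h
    rcases half_mul_cases (n := m) (by omega) k with e | e
    · exact (two_mul_eq_zero_iff (by omega)).1 (h2 ▸ e)
    · exfalso
      rw [e] at h2
      have h1 : (2 : ZMod (2 ^ m)) ^ (m - 2) * half m = 0 := by
        rw [half, ← pow_add]; exact two_pow_eq_zero m (by omega)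
      have h3 : half m * k = 0 := by
        calc half m * k = (2 : ZMod (2 ^ m)) ^ (m - 2) * (2 * k) := by
              rw [half, ← mul_assoc, ← pow_succ, show m - 2 + 1 = m - 1 by omega]
          _ = 0 := by rw [← h2, h1]
      rw [e] at h3
      exact half_ne_zero (by omega) h3
  · rintro (rfl | rfl)
    exacts [mul_zero _, sdr_half (by omega)]

variable [Finite G] {e : ZMod (2 ^ m) → G} {y : G} (D : SDData e y)
include D

theorem map_zero : e 0 = 1 := by
  have h := D.map_add 0 0
  rw [add_zero] at h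
  exact mul_eq_left.mp h.symm

theorem map_neg (i : ZMod (2 ^ m)) : e (-i) = (e i)⁻¹ :=
  eq_inv_of_mul_eq_one_left (by rw [← D.map_add, neg_add_cancel, D.map_zero])

theorem map_nsmul (k : ℕ) (i : ZMod (2 ^ m)) : e (k * i) = e i ^ k := by
  induction k with
  | zero => simp [D.map_zero]
  | succ k ih => rw [Nat.cast_succ, add_mul, one_mul, D.map_add, ih, pow_succ]

/-- `e` as a homomorphism. -/
def hom : Multiplicative (ZMod (2 ^ m)) →* G where
  toFun i := e i.toAdd
  map_one' := D.map_zero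
  map_mul' i j := D.map_add i.toAdd j.toAdd

/-- Conjugation inside the cyclic subgroup. -/
theorem conj_cases {g : G} {i j : ZMod (2 ^ m)} (hi : i ≠ 0) (hg : g * e i * g⁻¹ = e j) :
    ∃ l, (g = e l ∧ j = i) ∨ (g = e l * y ∧ j = sdr m * i) := by
  have hm := D.three
  haveI : Fact (Nat.Prime 2) := ⟨Nat.prime_two⟩
  -- a multiple of `i` is `half m`
  obtain ⟨k, hk⟩ : ∃ k : ℕ, (k : ZMod (2 ^ m)) * i = half m := by
    have hd : addOrderOf i ∣ 2 ^ m := by
      have := addOrderOf_dvd_natCard i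
      rwa [Nat.card_zmod] at this
    obtain ⟨a, -, ha⟩ := (Nat.dvd_prime_pow Nat.prime_two).1 hd
    have ha0 : a ≠ 0 := fun e0 => hi (AddMonoid.addOrderOf_eq_one_iff.1 (by rw [ha, e0, pow_zero]))
    obtain ⟨b, rfl⟩ : ∃ b, a = b + 1 := ⟨a - 1, by omega⟩
    refine ⟨2 ^ b, ?_⟩
    have h1 : (2 ^ b : ℕ) • i ≠ 0 := fun h0 => by
      have := addOrderOf_dvd_of_nsmul_eq_zero h0
      rw [ha] at this
      have := (Nat.pow_dvd_pow_iff_le_right (by norm_num)).1 this
      omega
    have h2 : (2 : ℕ) • ((2 ^ b : ℕ) • i) = 0 := by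
      rw [← mul_nsmul', ← pow_succ', ← ha]; exact addOrderOf_nsmul_eq_zero i
    rw [nsmul_eq_mul] at h1
    rw [nsmul_eq_mul, nsmul_eq_mul] at h2
    exact ((two_mul_eq_zero_iff (by omega)).1 (by exact_mod_cast h2)).resolve_left h1
  have hgt : g * e (half m) * g⁻¹ = e ((k : ZMod (2 ^ m)) * j) := by
    rw [← hk, D.map_nsmul, D.map_nsmul, ← conj_pow, hg]
  have hkj : (k : ZMod (2 ^ m)) * j = half m := by
    refine ((add_self_eq_zero_iff' (by omega)).1 (D.inj ?_)).resolve_left fun h0 => ?_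
    · rw [D.map_add, ← hgt, D.map_zero,
        show g * e (half m) * g⁻¹ * (g * e (half m) * g⁻¹) = g * (e (half m) * e (half m)) * g⁻¹ by group,
        ← D.map_add, half_add_half (by omega), D.map_zero]
      group
    · rw [h0, D.map_zero, conj_eq_one_iff] at hgt
      exact half_ne_zero (n := m) (by omega) (D.inj (hgt.trans D.map_zero.symm))
  rw [hkj] at hgt
  obtain ⟨l, hl | hl⟩ := D.cent g (mul_inv_eq_iff_eq_mul.1 hgt)
  · refine ⟨l, .inl ⟨hl, D.inj ?_⟩⟩
    rw [← hg, hl, mul_inv_eq_iff_eq_mul, ← D.map_add, ← D.map_add, add_comm]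
  · refine ⟨l, .inr ⟨hl, D.inj ?_⟩⟩
    rw [← hg, hl, mul_inv_eq_iff_eq_mul, mul_assoc, D.conj_y, ← mul_assoc, ← mul_assoc,
      ← D.map_add, ← D.map_add, add_comm]

theorem card_conjugators {i : ZMod (2 ^ m)} (hi : i ≠ 0) (j : ZMod (2 ^ m)) :
    Nat.card {g : G // g * e i * g⁻¹ = e j} =
      (if j = i then 2 ^ m else 0) + (if j = sdr m * i then 2 ^ m else 0) := by
  classical
  let f : {l : ZMod (2 ^ m) // j = i} ⊕ {l : ZMod (2 ^ m) // j = sdr m * i} → {g : G // g * e i * g⁻¹ = e j} :=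
    Sum.elim
      (fun l => ⟨e l.1, (by rw [mul_inv_eq_iff_eq_mul, ← D.map_add, ← D.map_add, add_comm] :
        e l.1 * e i * (e l.1)⁻¹ = e i).trans (congrArg e l.2.symm)⟩)
      (fun l => ⟨e l.1 * y, (by
        rw [mul_inv_eq_iff_eq_mul, mul_assoc, D.conj_y, ← mul_assoc, ← mul_assoc, ← D.map_add,
          ← D.map_add, add_comm] : e l.1 * y * e i * (e l.1 * y)⁻¹ = e (sdr m * i)).trans
        (congrArg e l.2.symm)⟩)
  have hf : Function.Bijective f := by
    constructor
    · rintro (⟨a, ha⟩ | ⟨a, ha⟩) (⟨b, hb⟩ | ⟨b, hb⟩) h <;>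
        simp only [f, Sum.elim_inl, Sum.elim_inr, Subtype.mk.injEq] at h
      · simp [D.inj h]
      · exact absurd h (fun h => D.y_ne (-b + a) (by rw [D.map_add, D.map_neg, h, inv_mul_cancel_left]))
      · exact absurd h.symm (fun h => D.y_ne (-a + b) (by rw [D.map_add, D.map_neg, h, inv_mul_cancel_left]))
      · simp [D.inj (mul_right_cancel h)]
    · rintro ⟨g, hg⟩
      obtain ⟨l, ⟨hl, hji⟩ | ⟨hl, hji⟩⟩ := D.conj_cases hi hg
      · exact ⟨.inl ⟨l, hji⟩, Subtype.ext hl.symm⟩
      · exact ⟨.inr ⟨l, hji⟩, Subtype.ext hl.symm⟩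
  rw [← Nat.card_eq_of_bijective f hf, Nat.card_sum]
  congr 1 <;> split_ifs with h
  · rw [Nat.card_congr (Equiv.subtypeUnivEquiv fun _ => h), Nat.card_zmod]
  · haveI : IsEmpty {l : ZMod (2 ^ m) // j = i} := ⟨fun l => h l.2⟩
    simp
  · rw [Nat.card_congr (Equiv.subtypeUnivEquiv fun _ => h), Nat.card_zmod]
  · haveI : IsEmpty {l : ZMod (2 ^ m) // j = sdr m * i} := ⟨fun l => h l.2⟩
    simp

theorem card_conjugators_one {i : ZMod (2 ^ m)} (hi : i ≠ 0) :
    Nat.card {g : G // g * e i * g⁻¹ = 1} = 0 := by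
  haveI : IsEmpty {g : G // g * e i * g⁻¹ = 1} := ⟨fun g => hi (D.inj (by
    rw [conj_eq_one_iff.1 g.2, D.map_zero]))⟩
  exact Nat.card_of_isEmpty

/-- An element of odd exponent is not inverted. -/
theorem not_inverted {i : ZMod (2 ^ m)} (hi : half m * i ≠ 0) (u : G) : u * e i * u⁻¹ ≠ e (-i) := by
  intro hu
  have hm := D.three
  have hi0 : i ≠ 0 := fun h => hi (by rw [h, mul_zero])
  obtain ⟨l, ⟨-, h⟩ | ⟨-, h⟩⟩ := D.conj_cases hi0 hu
  · rcases (two_mul_eq_zero_iff (n := m) (by omega)).1 (show 2 * i = 0 by linear_combination -h) with e1 | e1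
    · exact hi0 e1
    · exact hi (by rw [e1, half_sq (by omega)])
  · exact hi (by linear_combination -h)

omit D in
theorem natCard_cast_ne_zero : ((2 ^ m : ℕ) : ℂ) ≠ 0 :=
  Nat.cast_ne_zero.2 (by positivity)

/-- The standard additive character. -/
local notation "ψ" => ZMod.stdAddChar (N := 2 ^ m)

omit D in
theorem sum_psi (b : ZMod (2 ^ m)) :
    ∑ x, ψ (x * b) = if b = 0 then ((2 ^ m : ℕ) : ℂ) else 0 := by
  rw [AddChar.sum_mulShift b (ZMod.isPrimitive_stdAddChar _), ZMod.card]
  split_ifs <;> simp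

omit D in
theorem sum_psi' (b : ZMod (2 ^ m)) :
    ∑ x, ψ (b * x) = if b = 0 then ((2 ^ m : ℕ) : ℂ) else 0 := by
  simp only [mul_comm b]; exact sum_psi b

theorem exists_mult (χ : IrrCharacter G) (k : ZMod (2 ^ m)) :
    ∃ n : ℕ, ((2 ^ m : ℕ) : ℂ) * n = ∑ i, (χ : G → ℂ) (e i) * ψ (-(k * i)) := by
  classical
  let l : Multiplicative (ZMod (2 ^ m)) →* ℂˣ :=
    MonoidHom.toHomUnits ((AddChar.mulShift ψ k).toMonoidHom)
  obtain ⟨n, hn⟩ := exists_nat_classInner (isCharacter_comp (isCharacter_coe χ) D.hom) (linChar l)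
  refine ⟨n, ?_⟩
  rw [← hn]
  simp only [classInner]
  rw [show Nat.card (Multiplicative (ZMod (2 ^ m))) = 2 ^ m from Nat.card_zmod _, ← mul_assoc,
    mul_inv_cancel₀ natCard_cast_ne_zero, one_mul]
  refine (Fintype.sum_equiv Multiplicative.ofAdd _ _ fun i => ?_).symm
  rw [AddChar.map_neg_eq_conj, linChar_apply]
  rfl

/-- The multiplicity of the `k`-th character on the cyclic subgroup. -/
noncomputable def mult (χ : IrrCharacter G) (k : ZMod (2 ^ m)) : ℕ := (D.exists_mult χ k).choose

theorem mult_spec (χ : IrrCharacter G) (k : ZMod (2 ^ m)) :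
    ((2 ^ m : ℕ) : ℂ) * D.mult χ k = ∑ i, (χ : G → ℂ) (e i) * ψ (-(k * i)) :=
  (D.exists_mult χ k).choose_spec

/-- The coefficient of `χ` in the induced `1 - ψ_k`. -/
noncomputable def coef (k : ZMod (2 ^ m)) (χ : IrrCharacter G) : ℤ := (D.mult χ 0 : ℤ) - D.mult χ k

theorem coef_spec (k : ZMod (2 ^ m)) (χ : IrrCharacter G) :
    ((2 ^ m : ℕ) : ℂ) * D.coef k χ = ∑ i, (1 - ψ (-(k * i))) * (χ : G → ℂ) (e i) := by
  simp only [coef, Int.cast_sub, Int.cast_natCast, mul_sub, D.mult_spec, zero_mul, neg_zero,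
    AddChar.map_zero_eq_one, mul_one, ← Finset.sum_sub_distrib]
  exact Finset.sum_congr rfl fun i _ => by ring

theorem coef_zero (χ : IrrCharacter G) : D.coef 0 χ = 0 := sub_self _

theorem coef_one {k : ZMod (2 ^ m)} (hk : k ≠ 0) : D.coef k (oneChar G) = 1 := by
  have h := D.coef_spec k (oneChar G)
  simp only [oneChar_apply, mul_one, Finset.sum_sub_distrib, Finset.sum_const, Finset.card_univ,
    ZMod.card, nsmul_eq_mul, ← neg_mul, sum_psi', neg_eq_zero, if_neg hk, sub_zero] at h
  have h' := mul_left_cancel₀ (b := (D.coef k (oneChar G) : ℂ)) (c := 1)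
    (natCard_cast_ne_zero (m := m)) (by rw [h, mul_one])
  exact_mod_cast h'

theorem gram {k l : ZMod (2 ^ m)} (hk : k ≠ 0) (hl : l ≠ 0) :
    ∑ χ : IrrCharacter G, D.coef k χ * D.coef l χ =
      2 + (if l = k then 1 else 0) + (if sdr m * l = k then 1 else 0) := by
  classical
  have hm := D.three
  have hrl : sdr m * l ≠ 0 := fun h => hl (by rw [← sdr_sdr (by omega) l, h, mul_zero])
  set N : ℂ := ((2 ^ m : ℕ) : ℂ) with hN
  have hN0 : N ≠ 0 := natCard_cast_ne_zero
  have h2 : ∀ χ : IrrCharacter G, N * (D.coef k χ : ℂ) * (N * (D.coef l χ : ℂ)) =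
      ∑ i, ∑ j, (1 - ψ (-(k * i))) * (1 - ψ (l * j)) *
        ((χ : G → ℂ) (e i) * conj ((χ : G → ℂ) (e j))) := by
    intro χ
    have hl' : N * (D.coef l χ : ℂ) = conj (N * (D.coef l χ : ℂ)) := by
      rw [map_mul, hN, Complex.conj_natCast, map_intCast]
    rw [hl', D.coef_spec, D.coef_spec, map_sum, Finset.sum_mul_sum]
    refine Finset.sum_congr rfl fun i _ => Finset.sum_congr rfl fun j _ => ?_
    rw [map_mul, map_sub, map_one, ← AddChar.map_neg_eq_conj, neg_neg]
    ring
  have h3 : ∀ i, ∑ j, (1 - ψ (-(k * i))) * (1 - ψ (l * j)) *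
      (Nat.card {g : G // g * e i * g⁻¹ = e j} : ℂ) =
      N * ((1 - ψ (-(k * i))) * (2 - ψ (l * i) - ψ (sdr m * l * i))) := by
    intro i
    by_cases hi : i = 0
    · subst hi; simp
    rw [mul_right_comm (sdr m) l i, mul_comm (sdr m * i) l]
    simp only [D.card_conjugators hi, Nat.cast_add, Nat.cast_ite, Nat.cast_zero, mul_add, mul_ite,
      mul_zero, Finset.sum_add_distrib, Finset.sum_ite_eq', Finset.mem_univ, if_true, ← hN]
    ring
  have h : N * N * ((∑ χ : IrrCharacter G, D.coef k χ * D.coef l χ : ℤ) : ℂ) =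
      N * N * ((2 + (if l = k then 1 else 0) + (if sdr m * l = k then 1 else 0) : ℤ) : ℂ) := by
    push_cast
    rw [Finset.mul_sum, Finset.sum_congr rfl (g := fun χ : IrrCharacter G =>
      ∑ i, ∑ j, (1 - ψ (-(k * i))) * (1 - ψ (l * j)) *
        ((χ : G → ℂ) (e i) * conj ((χ : G → ℂ) (e j)))) fun χ _ => by rw [← h2 χ]; ring,
      Finset.sum_comm, Finset.sum_congr rfl fun i _ => Finset.sum_comm]
    simp only [← Finset.mul_sum, sum_irr_mul_conj_eq_card, h3]
    have e3 : ∀ i, (1 - ψ (-(k * i))) * (2 - ψ (l * i) - ψ (sdr m * l * i)) =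
        2 - 2 * ψ (-k * i) - ψ (l * i) - ψ (sdr m * l * i) + ψ ((l - k) * i) + ψ ((sdr m * l - k) * i) := by
      intro i
      rw [show (l - k) * i = l * i + -(k * i) by ring, show (sdr m * l - k) * i = sdr m * l * i + -(k * i) by ring,
        AddChar.map_add_eq_mul, AddChar.map_add_eq_mul, ← neg_mul]
      ring
    simp only [e3, Finset.sum_add_distrib, Finset.sum_sub_distrib, ← Finset.mul_sum, sum_psi',
      Finset.sum_const, Finset.card_univ, ZMod.card, nsmul_eq_mul, neg_eq_zero, if_neg hk, if_neg hl,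
      if_neg hrl, sub_eq_zero, ← hN]
    split_ifs <;> ring
  exact_mod_cast mul_left_cancel₀ (mul_ne_zero hN0 hN0) h

theorem degree_sum (k : ZMod (2 ^ m)) :
    ∑ χ : IrrCharacter G, D.coef k χ * (charDegree (χ : G → ℂ) : ℤ) = 0 := by
  classical
  have h : ((2 ^ m : ℕ) : ℂ) * ∑ χ : IrrCharacter G, (D.coef k χ : ℂ) * conj ((χ : G → ℂ) 1) = 0 := by
    simp only [Finset.mul_sum, ← mul_assoc, D.coef_spec, Finset.sum_mul]
    rw [Finset.sum_comm]
    refine Finset.sum_eq_zero fun i _ => ?_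
    rw [Finset.sum_congr rfl fun χ _ => mul_assoc _ _ _, ← Finset.mul_sum, sum_irr_mul_conj_eq_card]
    by_cases hi : i = 0
    · subst hi; simp
    · rw [D.card_conjugators_one hi, Nat.cast_zero, mul_zero]
  have h' := (mul_eq_zero.1 h).resolve_left natCard_cast_ne_zero
  simp only [← coe_charDegree, Complex.conj_natCast] at h'
  exact_mod_cast h'

/-- The sign of the `k`-th character at the involution. -/
noncomputable def sgn (_ : SDData e y) (k : ZMod (2 ^ m)) : ℤ := if half m * k = 0 then 1 else -1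

theorem sgn_cast (k : ZMod (2 ^ m)) : (D.sgn k : ℂ) = ψ (k * half m) := by
  have hm := D.three
  rw [mul_comm, sgn]
  split_ifs with h
  · simp [h]
  · rw [(half_mul_cases (n := m) (by omega) k).resolve_left h]
    have h1 : ψ (half m) * ψ (half m) = 1 := by
      rw [← AddChar.map_add_eq_mul, half_add_half (by omega), AddChar.map_zero_eq_one]
    rcases mul_self_eq_one_iff.1 h1 with h2 | h2
    · exact absurd (ZMod.injective_stdAddChar (h2.trans (AddChar.map_zero_eq_one _).symm))
        (half_ne_zero (by omega))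
    · simp [h2]

theorem value_t (χ : IrrCharacter G) :
    (χ : G → ℂ) (e (half m)) = ((-∑ k, D.coef k χ * D.sgn k : ℤ) : ℂ) := by
  classical
  have hm := D.three
  have h1 : ((2 ^ m : ℕ) : ℂ) * ∑ k, (D.mult χ k : ℂ) * ψ (k * half m) =
      ((2 ^ m : ℕ) : ℂ) * (χ : G → ℂ) (e (half m)) := by
    simp only [Finset.mul_sum, ← mul_assoc, D.mult_spec, Finset.sum_mul]
    rw [Finset.sum_comm]
    have : ∀ i k : ZMod (2 ^ m), (χ : G → ℂ) (e i) * ψ (-(k * i)) * ψ (k * half m) =
        (χ : G → ℂ) (e i) * ψ (k * (half m - i)) := fun i k => by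
      rw [mul_assoc, ← AddChar.map_add_eq_mul]; congr 2; ring
    simp only [this, ← Finset.mul_sum, sum_psi, sub_eq_zero, mul_ite, mul_zero, Finset.sum_ite_eq,
      Finset.mem_univ, if_true]
    ring
  rw [← mul_left_cancel₀ (natCard_cast_ne_zero (m := m)) h1]
  push_cast
  simp only [coef, Int.cast_sub, Int.cast_natCast, sub_mul, Finset.sum_sub_distrib, ← Finset.mul_sum,
    D.sgn_cast, sum_psi, if_neg (half_ne_zero (n := m) (show 1 ≤ m by omega)), mul_zero, zero_sub, neg_neg]

theorem sum_sgn : ∑ k, D.sgn k = 0 := by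
  have hm := D.three
  have h : ((∑ k, D.sgn k : ℤ) : ℂ) = 0 := by
    push_cast
    simp only [D.sgn_cast, sum_psi, if_neg (half_ne_zero (n := m) (show 1 ≤ m by omega))]
  exact_mod_cast h

/-- The equation from the class multiplication. -/
theorem equation :
    ∑ χ : IrrCharacter G, (D.coef (half m) χ : ℂ) *
      ((χ : G → ℂ) (e (half m)) * (χ : G → ℂ) (e (half m)) / (χ : G → ℂ) 1) = 0 := by
  classical
  letI := Fintype.ofFinite G
  have hm := D.three
  set t := e (half m) with ht
  have htt : t * t = 1 := by rw [ht, ← D.map_add, half_add_half (by omega), D.map_zero]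
  have hcol : ∀ i, half m * i ≠ 0 →
      ∑ χ : IrrCharacter G, (χ : G → ℂ) (e i) * ((χ : G → ℂ) t * (χ : G → ℂ) t / (χ : G → ℂ) 1) = 0 := by
    intro i hi
    have h1 : (Nat.card G : ℂ) * ∑ χ : IrrCharacter G,
        (χ : G → ℂ) (e i) * ((χ : G → ℂ) t * (χ : G → ℂ) t / (χ : G → ℂ) 1) =
        ∑ a : G, (Nat.card {x : G // x * (t * (a * t * a⁻¹)) * x⁻¹ = e (-i)} : ℂ) := by
      simp only [← sum_irr_mul_conj_eq_card, D.map_neg, map_inv_eq_conj (isCharacter_coe _),
        Complex.conj_conj]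
      rw [Finset.mul_sum, Finset.sum_comm]
      refine Finset.sum_congr rfl fun χ _ => ?_
      rw [← Finset.sum_mul, sum_map_mul_conjugate]
      ring
    have h2 : ∀ a : G, IsEmpty {x : G // x * (t * (a * t * a⁻¹)) * x⁻¹ = e (-i)} := fun a => ⟨fun x => by
      have hi' : half m * -i ≠ 0 := by rwa [mul_neg, neg_ne_zero]
      refine D.not_inverted hi' (x.1 * t * x.1⁻¹) ?_
      refine Eq.trans ?_ ((congrArg (fun z => z⁻¹) x.2).trans (D.map_neg (-i)).symm)
      refine Eq.trans (congrArg (fun z => x.1 * t * x.1⁻¹ * z * (x.1 * t * x.1⁻¹)⁻¹) x.2.symm) ?_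
      calc x.1 * t * x.1⁻¹ * (x.1 * (t * (a * t * a⁻¹)) * x.1⁻¹) * (x.1 * t * x.1⁻¹)⁻¹
          = x.1 * ((t * t) * (a * t * a⁻¹) * t⁻¹) * x.1⁻¹ := by group
        _ = x.1 * ((a * t * a⁻¹)⁻¹ * t⁻¹) * x.1⁻¹ := by
          rw [htt, one_mul, show (a * t * a⁻¹)⁻¹ = a * t * a⁻¹ by
            rw [mul_inv_rev, mul_inv_rev, inv_inv, inv_eq_of_mul_eq_one_right htt, mul_assoc]]
        _ = (x.1 * (t * (a * t * a⁻¹)) * x.1⁻¹)⁻¹ := by group⟩
    rw [Finset.sum_eq_zero (s := (Finset.univ : Finset G))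
      (f := fun a => (Nat.card {x : G // x * (t * (a * t * a⁻¹)) * x⁻¹ = e (-i)} : ℂ))
      fun a _ => by haveI := h2 a; simp] at h1
    exact (mul_eq_zero.1 h1).resolve_left natCard_ne_zero
  have h : ((2 ^ m : ℕ) : ℂ) * ∑ χ : IrrCharacter G, (D.coef (half m) χ : ℂ) *
      ((χ : G → ℂ) t * (χ : G → ℂ) t / (χ : G → ℂ) 1) = 0 := by
    simp only [Finset.mul_sum, ← mul_assoc, D.coef_spec, Finset.sum_mul]
    rw [Finset.sum_comm]
    refine Finset.sum_eq_zero fun i _ => ?_
    simp only [mul_assoc, ← Finset.mul_sum]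
    by_cases hi : half m * i = 0
    · simp [hi]
    · rw [hcol i hi, mul_zero]
  exact (mul_eq_zero.1 h).resolve_left natCard_cast_ne_zero

open CfsgLib.BrauerSuzukiWall in
theorem not_simple [IsSimpleGroup G] (hna : ¬ IsMulCommutative G) : False := by
  classical
  have hm := D.three
  let o := oneChar G
  let u : ZMod (2 ^ m) → IrrCharacter G → ℤ := fun k χ => if χ = o then 0 else D.coef k χ
  let J : Set (ZMod (2 ^ m)) := {k | sdr m * k ≠ k}
  let η := half m
  have hη : η ≠ 0 := half_ne_zero (by omega)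
  have hηfix : sdr m * η = η := sdr_half (by omega)
  have hJ0 : ∀ k ∈ J, k ≠ 0 := fun k hk e0 => hk (by rw [e0, mul_zero])
  have hJη : ∀ k ∈ J, k ≠ η := fun k hk e0 => hk (by rw [e0]; exact hηfix)
  have hsplit : ∀ {k : ZMod (2 ^ m)}, k ≠ 0 → ∀ f : IrrCharacter G → ℤ,
      ∑ χ, D.coef k χ * f χ = f o + ∑ χ, u k χ * f χ := by
    intro k hk f
    rw [← Finset.add_sum_erase _ _ (Finset.mem_univ o),
      ← Finset.add_sum_erase (f := fun χ => u k χ * f χ) _ (Finset.mem_univ o)]
    simp only [u, o, D.coef_one hk, one_mul, if_true, zero_mul, zero_add]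
    congr 1
    exact Finset.sum_congr rfl fun χ hχ => by rw [if_neg (Finset.ne_of_mem_erase hχ)]
  have hgram : ∀ {k l : ZMod (2 ^ m)}, k ≠ 0 → l ≠ 0 →
      ∑ χ, u k χ * u l χ = 1 + (if l = k then 1 else 0) + (if sdr m * l = k then 1 else 0) := by
    intro k l hk hl
    have h := D.gram hk hl
    rw [hsplit hk, D.coef_one hl] at h
    have h2 : ∑ χ, u k χ * D.coef l χ = ∑ χ, u k χ * u l χ := Finset.sum_congr rfl fun χ _ => by
      by_cases hχ : χ = o
      · simp [u, hχ]
      · simp [u, hχ]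
    rw [h2] at h
    linarith
  have hu : ∀ k ∈ J, ∑ χ, u k χ * u k χ = 2 := fun k hk => by
    rw [hgram (hJ0 k hk) (hJ0 k hk), if_pos rfl, if_neg hk]; norm_num
  have hr : ∑ χ, u η χ * u η χ = 3 := by
    rw [hgram hη hη, if_pos rfl, if_pos hηfix]; norm_num
  have hur : ∀ k ∈ J, ∑ χ, u k χ * u η χ = 1 := fun k hk => by
    rw [hgram (hJ0 k hk) hη, if_neg (Ne.symm (hJη k hk)), if_neg (by rw [hηfix]; exact Ne.symm (hJη k hk))]
    norm_num
  have horb : ∀ k ∈ J, ∀ l ∈ J, u k = u l → l = k ∨ sdr m * l = k := by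
    intro k hk l hl h
    by_contra hno
    push Not at hno
    have h1 := hgram (hJ0 k hk) (hJ0 l hl)
    rw [if_neg hno.1, if_neg hno.2, ← h, hu k hk] at h1
    norm_num at h1
  have huu : ∀ k ∈ J, ∀ l ∈ J, u k ≠ u l → ∑ χ, u k χ * u l χ = 1 := by
    intro k hk l hl h
    rw [hgram (hJ0 k hk) (hJ0 l hl), if_neg (fun e1 => h (by rw [e1])), if_neg]
    · norm_num
    intro e1
    refine h (funext fun χ => ?_)
    have h1 := hgram (hJ0 k hk) (hJ0 l hl)
    rw [if_pos e1, if_neg (fun e2 => hl (by rw [e1, e2]))] at h1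
    have h2 : ∑ χ, (u k χ - u l χ) * (u k χ - u l χ) = 0 := by
      have h2' : ∀ χ, (u k χ - u l χ) * (u k χ - u l χ) = u k χ * u k χ + u l χ * u l χ - 2 * (u k χ * u l χ) :=
        fun χ => by ring
      simp only [h2', Finset.sum_sub_distrib, Finset.sum_add_distrib, ← Finset.mul_sum, hu k hk, hu l hl, h1]
      norm_num
    have := (Finset.sum_eq_zero_iff_of_nonneg fun i _ => mul_self_nonneg _).1 h2 χ (Finset.mem_univ _)
    exact sub_eq_zero.1 (mul_self_eq_zero.1 this)
  have hd : ∀ {k : ZMod (2 ^ m)}, k ≠ 0 → ∑ χ, u k χ * (charDegree (χ : G → ℂ) : ℤ) = -1 := by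
    intro k hk
    have h := D.degree_sum k
    rw [hsplit hk] at h
    have ho : (charDegree (o : G → ℂ) : ℤ) = 1 := by
      exact_mod_cast charDegree_eq_of_map_one (χ := (o : G → ℂ)) (n := 1) (by simp [o])
    linarith
  -- three orbits
  have hh1 : half m * (2 : ZMod (2 ^ m)) = 0 := by rw [mul_comm]; exact two_mul_half (by omega)
  have hodd : half m * (sdr m) = half m := by
    rw [mul_comm]; exact sdr_half (by omega)
  have h4 : (4 : ZMod (2 ^ m)) ≠ 0 := by
    have := two_pow_ne_zero (n := m) (k := 2) (by omega)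
    norm_num at this; exact this
  have h2 : (2 : ZMod (2 ^ m)) ≠ 0 := by
    have := two_pow_ne_zero (n := m) (k := 1) (by omega)
    simpa using this
  have hJ1 : (1 : ZMod (2 ^ m)) ∈ J := fun h => by
    rcases (fixed_iff (by omega)).1 h with h | h
    · exact h2 (by linear_combination 2 * h)
    · exact half_ne_zero (n := m) (by omega) (by
        have := half_sq (m := m) (by omega); linear_combination this + half m * h)
  have hJm1 : (-1 : ZMod (2 ^ m)) ∈ J := fun h => hJ1 (by linear_combination -h)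
  have hJ2 : (2 : ZMod (2 ^ m)) ∈ J := fun h => by
    rcases (fixed_iff (by omega)).1 h with h | h
    · exact h2 h
    · exact half_ne_two hm h.symm
  rcases Arith.exists_common J (fun χ : IrrCharacter G => (charDegree (χ : G → ℂ) : ℤ)) u (u η)
      hu hr hur huu (fun k hk => hd (hJ0 k hk)) (hd hη) (l₀ := 1) hJ1 with
    ⟨a, ε, hε, hra, hua⟩ | ⟨l, n, a, b, c, hl, hn, -, -, -, -, -, -, -, -, -, -, -, -, hall⟩
  swap
  · -- at most two distinct vectors, but there are three orbits
    have k12 : u (1 : ZMod (2 ^ m)) ≠ u 2 := fun h => by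
      rcases horb 1 hJ1 2 hJ2 h with e1 | e1
      · exact half_ne_zero (n := m) (by omega) (by linear_combination hh1 - half m * e1)
      · exact half_ne_zero (n := m) (by omega) (by linear_combination sdr m * hh1 - half m * e1)
    have k12' : u (-1 : ZMod (2 ^ m)) ≠ u 2 := fun h => by
      rcases horb (-1) hJm1 2 hJ2 h with e1 | e1
      · exact half_ne_zero (n := m) (by omega) (by linear_combination half m * e1 - hh1)
      · exact half_ne_zero (n := m) (by omega) (by linear_combination half m * e1 - sdr m * hh1)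
    have k11 : u (1 : ZMod (2 ^ m)) ≠ u (-1) := fun h => by
      rcases horb 1 hJ1 (-1) hJm1 h with e1 | e1
      · exact h2 (by linear_combination -e1)
      · exact half_ne_zero (n := m) (by omega) (by linear_combination -e1)
    rcases hall 1 hJ1 with e1 | e1 <;> rcases hall (-1) hJm1 with e2 | e2 <;>
      rcases hall 2 hJ2 with e3 | e3
    all_goals
      first
        | exact k11 (e1.trans e2.symm)
        | exact k12 (e1.trans e3.symm)
        | exact k12' (e2.trans e3.symm)
  · have hε0 : ε ≠ 0 := by rcases hε with e1 | e1 <;> rw [e1] <;> norm_num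
    have hao : a ≠ o := fun e1 => hε0 (by rw [← hra]; simp [u, e1])
    have hua' : ∀ {k : ZMod (2 ^ m)}, k ≠ 0 → D.coef k a = ε := by
      intro k hk
      by_cases hkJ : k ∈ J
      · simpa [u, hao] using hua k hkJ
      · have : k = η := ((fixed_iff (by omega)).1 (not_not.1 hkJ)).resolve_left hk
        rw [this]; simpa [u, hao] using hra
    -- the other two constituents
    have hcard := Arith.card_support (v := u η) (n := 3) (by norm_num) (by exact_mod_cast hr)
    obtain ⟨x, b, c, hxb, hxc, hbc, hset⟩ := Finset.card_eq_three.1 hcard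
    have hmem : ∀ i, u η i ≠ 0 ↔ i = x ∨ i = b ∨ i = c := fun i => by
      simpa using Finset.ext_iff.1 hset i
    obtain ⟨b, c, hab, hac, hbc, hb, hc⟩ : ∃ b c, a ≠ b ∧ a ≠ c ∧ b ≠ c ∧ u η b ≠ 0 ∧ u η c ≠ 0 := by
      have hbn : u η b ≠ 0 := (hmem b).2 (by simp)
      have hcn : u η c ≠ 0 := (hmem c).2 (by simp)
      have hxn : u η x ≠ 0 := (hmem x).2 (by simp)
      rcases (hmem a).1 (by rw [hra]; exact hε0) with e1 | e1 | e1 <;> subst e1
      · exact ⟨b, c, hxb, hxc, hbc, hbn, hcn⟩
      · exact ⟨x, c, hxb.symm, hbc, hxc, hxn, hcn⟩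
      · exact ⟨x, b, hxc.symm, hbc.symm, hxb, hxn, hbn⟩
    have hzero : ∀ k ∈ J, ∀ i, i ≠ a → u η i ≠ 0 → u k i = 0 := by
      intro k hk i hia hi
      obtain ⟨p, q, hpq, hp, hq, hz⟩ := Arith.two_points (hu k hk)
      by_contra hne
      have hka : u k a ≠ 0 := by rw [hua k hk]; exact hε0
      have hia' : (p = a ∧ q = i) ∨ (p = i ∧ q = a) := by
        have h5 : ∀ j, u k j ≠ 0 → j = p ∨ j = q := fun j hj => by
          by_contra hno; push Not at hno; exact hj (hz j hno.1 hno.2)
        rcases h5 a hka with e1 | e1 <;> rcases h5 i hne with e2 | e2 <;> subst e1 <;> subst e2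
        exacts [absurd rfl hia, .inl ⟨rfl, rfl⟩, .inr ⟨rfl, rfl⟩, absurd rfl hia]
      rcases Arith.pick hpq hp hq hz hr.le (hur k hk) with ⟨h5, h6⟩ | ⟨h5, h6⟩ <;>
        rcases hia' with ⟨rfl, rfl⟩ | ⟨rfl, rfl⟩
      exacts [hi h6, hε0 (hra.symm.trans h6), hε0 (hra.symm.trans h5), hi h5]
    have hsgn0 : D.sgn 0 = 1 := by simp [sgn]
    have hsgnη : D.sgn η = 1 := by simp [sgn, η, half_sq (m := m) (by omega)]
    have hta : (a : G → ℂ) (e (half m)) = (ε : ℂ) := by
      rw [D.value_t]
      congr 1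
      have hs := D.sum_sgn
      rw [← Finset.add_sum_erase _ _ (Finset.mem_univ (0 : ZMod (2 ^ m))), D.coef_zero, zero_mul, zero_add,
        Finset.sum_congr rfl fun k hk => by rw [hua' (Finset.ne_of_mem_erase hk)], ← Finset.mul_sum]
      rw [← Finset.add_sum_erase _ _ (Finset.mem_univ (0 : ZMod (2 ^ m))), hsgn0] at hs
      linear_combination (-ε) * hs
    have htb : ∀ i, i ≠ a → u η i ≠ 0 → (i : G → ℂ) (e (half m)) = ((-u η i : ℤ) : ℂ) := by
      intro i hia hi
      have hio : i ≠ o := fun e1 => hi (by simp [u, e1])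
      rw [D.value_t]
      congr 2
      rw [Finset.sum_eq_single η]
      · simp [u, hio, hsgnη]
      · intro k _ hk
        by_cases hk0 : k = 0
        · rw [hk0, D.coef_zero, zero_mul]
        have hkJ : k ∈ J := by
          by_contra h5
          exact hk (((fixed_iff (by omega)).1 (not_not.1 h5)).resolve_left hk0)
        have := hzero k hkJ i hia hi
        simp only [u, if_neg hio] at this
        rw [this, zero_mul]
      · simp
    have hsq : ∀ i, u η i ≠ 0 → (i : G → ℂ) (e (half m)) * (i : G → ℂ) (e (half m)) = 1 := by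
      intro i hi
      have h5 : u η i * u η i = 1 := by
        rcases Arith.small (le_of_eq hr) i with e1 | e1 | e1
        · exact absurd e1 hi
        all_goals rw [e1]; norm_num
      by_cases hia : i = a
      · subst hia; rw [hta]
        rcases hε with e1 | e1 <;> rw [e1] <;> norm_num
      · rw [htb i hia hi]
        rw [← Int.cast_mul, neg_mul_neg, h5, Int.cast_one]
    -- the equation
    have hd1 := hd hη
    rw [Arith.sum_three hr hab hac hbc (by rw [hra]; exact hε0) hb hc] at hd1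
    have heq : (1 : ℂ) + ((u η a : ℂ) / (charDegree (a : G → ℂ) : ℂ) + (u η b : ℂ) / (charDegree (b : G → ℂ) : ℂ) +
        (u η c : ℂ) / (charDegree (c : G → ℂ) : ℂ)) = 0 := by
      have h5 := D.equation
      rw [← Finset.add_sum_erase _ _ (Finset.mem_univ o)] at h5
      have h6 : ∑ χ ∈ Finset.univ.erase o, (D.coef (half m) χ : ℂ) *
          ((χ : G → ℂ) (e (half m)) * (χ : G → ℂ) (e (half m)) / (χ : G → ℂ) 1) =
          ∑ χ, (u η χ : ℂ) / (charDegree (χ : G → ℂ) : ℂ) := by
        refine Eq.trans (Finset.sum_congr rfl fun χ hχ => ?_) (Finset.sum_erase _ ?_)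
        · have hχo := Finset.ne_of_mem_erase hχ
          by_cases h7 : u η χ = 0
          · have : D.coef (half m) χ = 0 := by simpa [u, hχo, η] using h7
            simp [this, h7]
          · rw [hsq χ h7, coe_charDegree]; simp [u, hχo, η, div_eq_mul_inv]
        · simp [u]
      have h7 : ∑ χ, (u η χ : ℂ) / (charDegree (χ : G → ℂ) : ℂ) =
          (u η a : ℂ) / (charDegree (a : G → ℂ) : ℂ) + (u η b : ℂ) / (charDegree (b : G → ℂ) : ℂ) +
          (u η c : ℂ) / (charDegree (c : G → ℂ) : ℂ) := by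
        rw [← Finset.sum_subset (Finset.subset_univ {a, b, c}) (fun i _ hi => ?_),
          Finset.sum_insert (by simp [hab, hac]), Finset.sum_pair hbc, add_assoc]
        have : u η i = 0 := by
          by_contra h8
          have hsub : ({a, b, c, i} : Finset (IrrCharacter G)) ⊆ Finset.univ.filter fun j => u η j ≠ 0 := by
            intro j hj
            simp only [Finset.mem_insert, Finset.mem_singleton] at hj
            simp only [Finset.mem_filter, Finset.mem_univ, true_and]
            rcases hj with rfl | rfl | rfl | rfl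
            exacts [by rw [hra]; exact hε0, hb, hc, h8]
          simp only [Finset.mem_insert, Finset.mem_singleton, not_or] at hi
          have h9 := Finset.card_le_card hsub
          rw [hcard, Finset.card_insert_of_notMem (by simp [hab, hac, Ne.symm hi.1]),
            Finset.card_insert_of_notMem (by simp [hbc, Ne.symm hi.2.1]),
            Finset.card_pair (Ne.symm hi.2.2)] at h9
          omega
        simp [this]
      rw [h6, h7, show D.coef (half m) o = 1 from D.coef_one hη] at h5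
      simpa [o] using h5
    have hpos : ∀ i : IrrCharacter G, (charDegree (i : G → ℂ) : ℂ) ≠ 0 := fun i => by
      rw [coe_charDegree]; exact CfsgLib.Chars.map_one_ne_zero i
    have hX : ∀ i, u η i ≠ 0 → ∃ X : ℤ, X = u η i * (charDegree (i : G → ℂ) : ℤ) ∧
        (u η i : ℂ) / (charDegree (i : G → ℂ) : ℂ) = (X : ℂ)⁻¹ ∧ (X : ℂ) ≠ 0 := by
      intro i hi
      refine ⟨_, rfl, ?_, ?_⟩
      · rcases Arith.small (le_of_eq hr) i with e1 | e1 | e1
        · exact absurd e1 hi
        all_goals rw [e1]; push_cast; simp [div_eq_mul_inv]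
      · push_cast; exact mul_ne_zero (Int.cast_ne_zero.2 hi) (hpos i)
    obtain ⟨X, hX1, hX2, hX0⟩ := hX a (by rw [hra]; exact hε0)
    obtain ⟨Y, hY1, hY2, hY0⟩ := hX b hb
    obtain ⟨Z, hZ1, hZ2, hZ0⟩ := hX c hc
    rw [hX2, hY2, hZ2] at heq
    rw [← hX1, ← hY1, ← hZ1] at hd1
    have hprod : (X + 1) * (Y + 1) * (Z + 1) = 0 := by
      have h5 : ((X : ℂ) + 1) * ((Y : ℂ) + 1) * ((Z : ℂ) + 1) = 0 := by
        have hd1' : (X : ℂ) + Y + Z = -1 := by exact_mod_cast hd1
        field_simp at heq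
        linear_combination heq + hd1'
      exact_mod_cast h5
    have hone : ∀ i, u η i ≠ 0 → u η i * (charDegree (i : G → ℂ) : ℤ) + 1 = 0 → False := by
      intro i hi h5
      have : charDegree (i : G → ℂ) = 1 := by
        rcases Arith.small (le_of_eq hr) i with e1 | e1 | e1
        · exact absurd e1 hi
        all_goals rw [e1] at h5; omega
      exact hi (by simp [u, o, CfsgLib.PrimeGram.linear_eq_one hna i this])
    rcases mul_eq_zero.1 hprod with h5 | h5
    · rcases mul_eq_zero.1 h5 with h6 | h6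
      · exact hone a (by rw [hra]; exact hε0) (hX1 ▸ h6)
      · exact hone b hb (hY1 ▸ h6)
    · exact hone c hc (hZ1 ▸ h5)

end SDData

end CfsgLib.SelfCentralNC
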