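import Cfsg.Agent.SelfCentralNoncyclic.Basic
import Cfsg.Agent.TwoGroup.MaximalClass
import Cfsg.Agent.TwoGroup.Semidihedral
import Cfsg.Agent.PSL2Two.Abstract
import Cfsg.Agent.S3919
import Cfsg.Agent.S0201

/-!
Simple groups with self-centralizing non-cyclic subgroups: the Sylow 2-subgroups and the
centralizers of involutions.
-/

set_option autoImplicit false
set_option linter.style.haveILetI false

namespace CfsgLib.SelfCentralNC

universe u

variable {G : Type u} [Group G]

/-- The subgroup `⟨w⟩ ∪ ⟨w⟩s` for an involution `s` inverting `w`. -/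
def dihPair (w s : G) (hs : s * s = 1) (h : ∀ i : ℤ, s * w ^ i = w ^ (-i) * s) : Subgroup G where
  carrier := {x | ∃ i : ℤ, x = w ^ i ∨ x = w ^ i * s}
  one_mem' := ⟨0, Or.inl (zpow_zero w).symm⟩
  mul_mem' := by
    rintro _ _ ⟨i, rfl | rfl⟩ ⟨j, rfl | rfl⟩
    · exact ⟨i + j, Or.inl (zpow_add w i j).symm⟩
    · exact ⟨i + j, Or.inr (by rw [zpow_add, mul_assoc])⟩
    · exact ⟨i + -j, Or.inr (by rw [mul_assoc, h, zpow_add, mul_assoc])⟩
    · refine ⟨i + -j, Or.inl ?_⟩
      rw [mul_assoc, ← mul_assoc s, h, mul_assoc, hs, mul_one, zpow_add]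
  inv_mem' := by
    rintro _ ⟨i, rfl | rfl⟩
    · exact ⟨-i, Or.inl (zpow_neg w i).symm⟩
    · refine ⟨i, Or.inr ?_⟩
      rw [mul_inv_rev, ← zpow_neg, inv_eq_of_mul_eq_one_right hs, h, neg_neg]

theorem mem_dihPair {w s : G} {hs : s * s = 1} {h : ∀ i : ℤ, s * w ^ i = w ^ (-i) * s} {x : G} :
    x ∈ dihPair w s hs h ↔ ∃ i : ℤ, x = w ^ i ∨ x = w ^ i * s := Iff.rfl

theorem orderOf_eq_two_of_sq {x : G} (h : x * x = 1) (h1 : x ≠ 1) : orderOf x = 2 :=
  orderOf_eq_prime (by rw [pow_two, h]) h1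

theorem mul_self_of_orderOf_two {x : G} (h : orderOf x = 2) : x * x = 1 := by
  rw [← pow_two, ← h, pow_orderOf_eq_one]

theorem ne_one_of_orderOf_two {x : G} (h : orderOf x = 2) : x ≠ 1 := fun e => by
  rw [e, orderOf_one] at h; exact absurd h (by norm_num)

/-- An involution of `C(t)` other than `t` lies in a normal 2-subgroup of `C(t)`. -/
theorem SCN.involution_mem_normal [Finite G] (h : SCN G) {t : G} (ht : orderOf t = 2)
    (s : ↥(Subgroup.centralizer ({t} : Set G))) (hs : orderOf s = 2) :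
    ∃ N : Subgroup ↥(Subgroup.centralizer ({t} : Set G)),
      N.Normal ∧ IsPGroup 2 ↥N ∧ s ∈ N := by
  haveI : Fact (Nat.Prime 2) := ⟨Nat.prime_two⟩
  have hss : s * s = 1 := mul_self_of_orderOf_two hs
  obtain ⟨N, hN1, hN2, hN3⟩ := Cfsg.Agent.S0199.result (Subgroup.zpowers s)
      (IsPGroup.of_card (n := 1) (by rw [Nat.card_zpowers, hs, pow_one])) fun g => by
    set s' := g * s * g⁻¹ with hs'
    have hs's' : s' * s' = 1 := by
      rw [hs', show g * s * g⁻¹ * (g * s * g⁻¹) = g * (s * s) * g⁻¹ by group, hss]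
      group
    set w := s * s' with hw
    have hsw : ∀ i : ℤ, s * w ^ i = w ^ (-i) * s := by
      intro i
      have h1 : s * w * s⁻¹ = w⁻¹ := by
        rw [hw, mul_inv_rev, inv_eq_of_mul_eq_one_right hss, inv_eq_of_mul_eq_one_right hs's',
          ← mul_assoc, hss, one_mul]
      calc s * w ^ i = (s * w * s⁻¹) ^ i * s := by rw [conj_zpow]; group
        _ = w ^ (-i) * s := by rw [h1, inv_zpow, zpow_neg]
    by_cases hp : ∀ p : ℕ, p.Prime → p ∣ orderOf w → p = 2
    · have hD : IsPGroup 2 ↥(dihPair w s hss hsw) := by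
        rintro ⟨x, i, rfl | rfl⟩
        · obtain ⟨k, hk⟩ : ∃ k, orderOf w = 2 ^ k :=
            ⟨_, Nat.eq_prime_pow_of_unique_prime_dvd (orderOf_pos w).ne' fun {d} hd hd' => hp d hd hd'⟩
          refine ⟨k, Subtype.ext ?_⟩
          show (w ^ i) ^ (2 ^ k) = 1
          rw [← zpow_natCast, ← zpow_mul, mul_comm, zpow_mul, zpow_natCast, ← hk, pow_orderOf_eq_one,
            one_zpow]
        · refine ⟨1, Subtype.ext ?_⟩
          show (w ^ i * s) ^ (2 ^ 1) = 1
          rw [pow_one, pow_two, mul_assoc, ← mul_assoc s, hsw, mul_assoc, hss, mul_one, ← zpow_add,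
            add_neg_cancel, zpow_zero]
      refine hD.to_le (sup_le (Subgroup.zpowers_le.2 ⟨0, Or.inr (by rw [zpow_zero, one_mul])⟩) ?_)
      rw [MonoidHom.map_zpowers, Subgroup.zpowers_le]
      show g * s * g⁻¹ ∈ dihPair w s hss hsw
      refine ⟨-1, Or.inr ?_⟩
      rw [← hs', ← hsw 1, zpow_one, hw, ← mul_assoc, hss, one_mul]
    · -- `s` inverts an element of odd prime order, giving a non-cyclic subgroup missing `t`
      exfalso
      push Not at hp
      obtain ⟨p, hp, hpw, hp2⟩ := hp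
      set y := (w ^ (orderOf w / p) : ↥(Subgroup.centralizer ({t} : Set G))) with hy
      have hyp : orderOf y = p := orderOf_pow_orderOf_div (orderOf_pos w).ne' hpw
      have hsy : ∀ i : ℤ, (s : G) * (y : G) ^ i = (y : G) ^ (-i) * (s : G) := by
        intro i
        have h1 := congrArg (Subtype.val) (hsw (((orderOf w / p : ℕ) : ℤ) * i))
        rw [Subgroup.coe_mul, Subgroup.coe_mul, Subgroup.coe_zpow, Subgroup.coe_zpow, zpow_mul,
          zpow_natCast, ← Subgroup.coe_pow, ← hy, ← mul_neg, zpow_mul, zpow_natCast, ← Subgroup.coe_pow,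
          ← hy] at h1
        exact h1
      have hsG : (s : G) * (s : G) = 1 := congrArg Subtype.val hss
      set H := dihPair (y : G) (s : G) hsG hsy with hH
      have hyodd : ∀ i : ℤ, (y : G) ^ i * (y : G) ^ i = 1 → (y : G) ^ i = 1 := by
        intro i hi
        have h1 : orderOf ((y : G) ^ i) ∣ 2 := orderOf_dvd_of_pow_eq_one (by rw [pow_two]; exact hi)
        have h2 : orderOf ((y : G) ^ i) ∣ p := by
          rw [← hyp, ← Subgroup.orderOf_coe]; exact orderOf_dvd_of_mem_zpowers ⟨i, rfl⟩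
        rw [← orderOf_eq_one_iff]
        exact Nat.dvd_one.1 (((Nat.coprime_primes Nat.prime_two hp).2 (Ne.symm hp2)) ▸ Nat.dvd_gcd h1 h2)
      have hne : (s : G) * (y : G) ≠ (y : G) * (s : G) := by
        intro e
        have h1 : (y : G) * (s : G) = (y : G)⁻¹ * (s : G) := by
          have := hsy 1
          rw [zpow_one, zpow_neg, zpow_one] at this
          rw [← e, this]
        have h2 : (y : G) ^ (1 : ℤ) = 1 :=
          hyodd 1 (by rw [zpow_one]; nth_rewrite 1 [mul_right_cancel h1]; exact inv_mul_cancel _)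
        rw [zpow_one] at h2
        have : orderOf y = 1 := by rw [← Subgroup.orderOf_coe, h2, orderOf_one]
        exact hp.ne_one (hyp ▸ this)
      have hyH : (y : G) ∈ H := ⟨1, Or.inl (zpow_one _).symm⟩
      have hsH : (s : G) ∈ H := ⟨0, Or.inr (by rw [zpow_zero, one_mul])⟩
      have hnc : ¬ IsCyclic ↥H := fun hc => hne (by
        haveI := hc
        exact congrArg Subtype.val (IsCyclic.commGroup.mul_comm (⟨(s : G), hsH⟩ : ↥H) ⟨(y : G), hyH⟩))
      have hty : ∀ z : ↥(Subgroup.centralizer ({t} : Set G)), Commute t (z : G) := fun z =>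
        (Subgroup.mem_centralizer_iff.1 z.2 t (Set.mem_singleton _))
      have htH : t ∈ H := h H hnc (by
        rw [Subgroup.mem_centralizer_iff]
        rintro _ ⟨i, rfl | rfl⟩
        · exact ((hty y).zpow_right i).eq.symm
        · exact (((hty y).zpow_right i).mul_right (hty s)).eq.symm)
      obtain ⟨i, hi | hi⟩ := htH
      · have := hyodd i (hi ▸ mul_self_of_orderOf_two ht)
        exact ne_one_of_orderOf_two ht (hi.trans this)
      · refine hne ?_
        have h1 : Commute ((y : G) ^ i * (s : G)) (y : G) := hi ▸ hty y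
        have h2 : Commute (((y : G) ^ i)⁻¹ * ((y : G) ^ i * (s : G))) (y : G) :=
          ((Commute.refl (y : G)).zpow_left i).inv_left.mul_left h1
        rw [inv_mul_cancel_left] at h2
        exact h2.eq
  exact ⟨N, hN1, hN2, hN3 (Subgroup.mem_zpowers s)⟩

/-- A normal 2-subgroup of `C(t)` lies in every Sylow 2-subgroup of `G` inside `C(t)`. -/
theorem normal_two_le_sylow [Finite G] {C : Subgroup G} (T : Sylow 2 G) (hT : (T : Subgroup G) ≤ C)
    (N : Subgroup ↥C) [N.Normal] (hN : IsPGroup 2 ↥N) : N.map C.subtype ≤ (T : Subgroup G) := by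
  have hsup : IsPGroup 2 ↥((T : Subgroup G).subgroupOf C ⊔ N) :=
    (T.2.of_equiv (Subgroup.subgroupOfEquivOfLe hT).symm).to_sup_of_normal_right hN
  have hle : (T : Subgroup G) ≤ ((T : Subgroup G).subgroupOf C ⊔ N).map C.subtype := fun x hx =>
    ⟨⟨x, hT hx⟩, Subgroup.mem_sup_left (show (⟨x, hT hx⟩ : ↥C) ∈ (T : Subgroup G).subgroupOf C from hx), rfl⟩
  have heq := T.3 (hsup.map C.subtype) hle
  exact le_of_le_of_eq (Subgroup.map_mono le_sup_right) heq

/-- The centralizer of a central involution of a suitable Sylow 2-subgroup is that subgroup. -/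
theorem SCN.centralizer_eq_sylow [Finite G] (h : SCN G) (T : Sylow 2 G) {t : G} (ht : orderOf t = 2)
    (htT : t ∈ (T : Subgroup G)) (htZ : ∀ x ∈ (T : Subgroup G), x * t = t * x)
    (R : Subgroup G) (hRT : R ≤ (T : Subgroup G)) (hRc : IsCyclic ↥R) (htR : t ∈ R)
    (hR : Nat.card ↥(T : Subgroup G) = 2 * Nat.card ↥R)
    {s₀ : G} (hs₀ : s₀ ∈ (T : Subgroup G)) (hs₀2 : orderOf s₀ = 2) (hs₀t : s₀ ≠ t) :
    Subgroup.centralizer ({t} : Set G) = (T : Subgroup G) := by
  classical
  haveI : Fact (Nat.Prime 2) := ⟨Nat.prime_two⟩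
  haveI := hRc
  set C := Subgroup.centralizer ({t} : Set G) with hC
  have hTC : (T : Subgroup G) ≤ C := fun x hx => Subgroup.mem_centralizer_singleton_iff.2 (htZ x hx)
  have hCt : ∀ z ∈ C, z * t = t * z := fun z hz => Subgroup.mem_centralizer_singleton_iff.1 hz
  have hinv : ∀ s ∈ C, orderOf s = 2 → s ∈ (T : Subgroup G) := fun s hs hs2 => by
    obtain ⟨N, hN1, hN2, hN3⟩ := h.involution_mem_normal ht ⟨s, hs⟩
      (by rw [← Subgroup.orderOf_coe]; exact hs2)
    haveI := hN1
    exact normal_two_le_sylow T hTC N hN2 ⟨_, hN3, rfl⟩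
  -- the four-groups through `t` are self-centralizing
  have hfour : ∀ s ∈ (T : Subgroup G), orderOf s = 2 → s ≠ t →
      ∀ z : G, Commute z s → Commute z t → z = 1 ∨ z = t ∨ z = s ∨ z = t * s := by
    intro s hsT hs hst z hzs hzt
    have hts : Commute t s := (htZ s hsT).symm
    have hsgn : ∀ i : ℤ, s * t ^ i = t ^ (-i) * s := by
      intro i
      rw [(hts.zpow_left i).eq.symm, zpow_neg, ← inv_zpow,
        inv_eq_of_mul_eq_one_right (mul_self_of_orderOf_two ht)]
    have hzp : ∀ i : ℤ, t ^ i = 1 ∨ t ^ i = t := by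
      intro i
      rcases Int.even_or_odd i with ⟨j, rfl⟩ | ⟨j, rfl⟩
      · left
        rw [← two_mul, zpow_mul, zpow_two, mul_self_of_orderOf_two ht, one_zpow]
      · right
        rw [zpow_add, zpow_mul, zpow_two, mul_self_of_orderOf_two ht, one_zpow, one_mul, zpow_one]
    set E := dihPair t s (mul_self_of_orderOf_two hs) hsgn with hE
    have htE : t ∈ E := ⟨1, Or.inl (zpow_one t).symm⟩
    have hsE : s ∈ E := ⟨0, Or.inr (by rw [zpow_zero, one_mul])⟩
    have hnc : ¬ IsCyclic ↥E := fun hc => by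
      haveI := hc
      exact hst (CfsgLib.PSL2Two.involution_unique hsE htE hs ht)
    obtain ⟨i, hi | hi⟩ : z ∈ E := h E hnc (by
      rw [Subgroup.mem_centralizer_iff]
      rintro _ ⟨i, rfl | rfl⟩
      · exact (hzt.zpow_right i).eq.symm
      · exact ((hzt.zpow_right i).mul_right hzs).eq.symm)
    · rcases hzp i with e | e <;> rw [hi, e] <;> simp
    · rcases hzp i with e | e <;> rw [hi, e] <;> simp
  let I : Set G := {s | s ∈ (T : Subgroup G) ∧ orderOf s = 2 ∧ s ≠ t}
  have hstab : ∀ k ∈ C, ∀ s ∈ I, k * s * k⁻¹ ∈ I := by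
    rintro k hk s ⟨hsT, hs2, hst⟩
    have h2 : orderOf (k * s * k⁻¹) = 2 := by
      rw [show k * s * k⁻¹ = MulAut.conj k s from rfl, MulEquiv.orderOf_eq]; exact hs2
    refine ⟨hinv _ (C.mul_mem (C.mul_mem hk (hTC hsT)) (C.inv_mem hk)) h2, h2, fun e => hst ?_⟩
    calc s = k⁻¹ * (k * s * k⁻¹) * k := by group
      _ = k⁻¹ * (t * k) := by rw [e, mul_assoc]
      _ = t := by rw [← hCt k hk, inv_mul_cancel_left]
  -- a Sylow subgroup acting on `I` has orbits of size `|T| / 4`
  letI actT : MulAction ↥(T : Subgroup G) ↥I :=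
    { smul := fun k s => ⟨k.1 * s.1 * k.1⁻¹, hstab _ (hTC k.2) _ s.2⟩
      one_smul := fun s => Subtype.ext (by show (1 : G) * s.1 * (1 : G)⁻¹ = s.1; group)
      mul_smul := fun a b s => Subtype.ext (by
        show a.1 * b.1 * s.1 * (a.1 * b.1)⁻¹ = a.1 * (b.1 * s.1 * b.1⁻¹) * a.1⁻¹
        group) }
  have hstab4 : ∀ s : ↥I, Nat.card ↥(MulAction.stabilizer ↥(T : Subgroup G) s) ≤ 4 := by
    intro s
    have hf : Set.MapsTo (fun k : ↥(T : Subgroup G) => (k : G))
        (MulAction.stabilizer ↥(T : Subgroup G) s : Set ↥(T : Subgroup G))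
        ({1, t, s.1, t * s.1} : Finset G) := by
      intro k hk
      have hk' : k.1 * s.1 * k.1⁻¹ = s.1 := congrArg Subtype.val hk
      have hks : Commute k.1 s.1 := mul_inv_eq_iff_eq_mul.1 hk'
      have := hfour s.1 s.2.1 s.2.2.1 s.2.2.2 k.1 hks (htZ _ k.2)
      simpa using this
    have := Set.ncard_le_ncard_of_injOn _ hf Subtype.val_injective.injOn (Finset.finite_toSet _)
    rw [Set.ncard_coe_finset] at this
    exact le_trans (le_of_eq (Nat.card_coe_set_eq _)) (this.trans Finset.card_le_four)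
  obtain ⟨n, hn⟩ := IsPGroup.iff_card.1 T.2
  haveI : Fintype ↥(T : Subgroup G) := Fintype.ofFinite _
  haveI : Fintype ↥I := Fintype.ofFinite _
  have horb : ∀ s : ↥I, 2 ^ (n - 2) ∣ Nat.card ↥(MulAction.orbit ↥(T : Subgroup G) s) := by
    intro s
    have hmul := (MulAction.stabilizer ↥(T : Subgroup G) s).card_mul_index
    rw [MulAction.index_stabilizer, hn, ← Nat.card_coe_set_eq] at hmul
    obtain ⟨a, -, ha⟩ := (Nat.dvd_prime_pow Nat.prime_two).1 (Dvd.intro _ hmul)
    have ha2 : a ≤ 2 := by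
      by_contra hlt
      have := hstab4 s
      rw [ha] at this
      have := Nat.pow_le_pow_right (show 0 < 2 by norm_num) (show 3 ≤ a by omega)
      omega
    obtain ⟨b, -, hb⟩ := (Nat.dvd_prime_pow Nat.prime_two).1 (Dvd.intro_left _ hmul)
    rw [hb]
    refine pow_dvd_pow 2 ?_
    rw [ha, hb, ← pow_add] at hmul
    have := Nat.pow_right_injective (le_refl 2) hmul
    omega
  have hI : 2 ^ (n - 2) ∣ Nat.card ↥I := by
    rw [Nat.card_congr (MulAction.selfEquivSigmaOrbits ↥(T : Subgroup G) ↥I)]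
    haveI : Fintype (MulAction.orbitRel.Quotient ↥(T : Subgroup G) ↥I) := Fintype.ofFinite _
    rw [Nat.card_sigma]
    exact Finset.dvd_sum fun ω _ => horb ω.out
  have hIle : Nat.card ↥I ≤ Nat.card ↥R := by
    have hsub : I ⊆ ((T : Subgroup G) : Set G) \ (R : Set G) := fun s hs =>
      ⟨hs.1, fun hsR => hs.2.2 (CfsgLib.PSL2Two.involution_unique hsR htR hs.2.1 ht)⟩
    have h1 := Set.ncard_le_ncard hsub
    rw [Set.ncard_sdiff (show (R : Set G) ⊆ ((T : Subgroup G) : Set G) from hRT)] at h1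
    rw [Nat.card_coe_set_eq]
    simp only [← Nat.card_coe_set_eq, SetLike.coe_sort_coe] at h1 ⊢
    omega
  have hIpos : 0 < Nat.card ↥I := Nat.card_pos_iff.2 ⟨⟨⟨s₀, hs₀, hs₀2, hs₀t⟩⟩, inferInstance⟩
  have hI2 : ∀ p : ℕ, p.Prime → p ≠ 2 → ¬ p ∣ Nat.card ↥I := by
    intro p hp hp2 hpI
    obtain ⟨c, hc⟩ := hI
    rw [hn] at hR
    have hn1 : 1 ≤ n := by
      by_contra h0
      rw [show n = 0 by omega] at hR; simp at hR; omega
    have hR' : Nat.card ↥R = 2 ^ (n - 1) := by
      rw [show n = n - 1 + 1 by omega, pow_succ] at hR; omega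
    have hc2 : c ≤ 2 := by
      have hle : 2 ^ (n - 1) ≤ 2 * 2 ^ (n - 2) := by
        rw [← pow_succ']; exact Nat.pow_le_pow_right (by norm_num) (by omega)
      have : 2 ^ (n - 2) * c ≤ 2 ^ (n - 2) * 2 := by omega
      exact Nat.le_of_mul_le_mul_left this (by positivity)
    rw [hc] at hpI
    rcases hp.dvd_mul.1 hpI with hd | hd
    · exact hp2 ((Nat.prime_dvd_prime_iff_eq hp Nat.prime_two).1 (hp.dvd_of_dvd_pow hd))
    · have hc0 : c ≠ 0 := fun e => by rw [hc, e] at hIpos; simp at hIpos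
      have := Nat.le_of_dvd (Nat.pos_of_ne_zero hc0) hd
      have := hp.two_le
      omega
  -- so `C` is a 2-group
  have hC2 : IsPGroup 2 ↥C := by
    refine IsPGroup.of_card (Nat.eq_prime_pow_of_unique_prime_dvd (p := 2) Nat.card_pos.ne'
      (fun {p} hp hpC => ?_))
    · by_contra hp2
      haveI := Fact.mk hp
      obtain ⟨y, hy⟩ := exists_prime_orderOf_dvd_card' p hpC
      have hzy : IsPGroup p ↥(Subgroup.zpowers (y : G)) :=
        IsPGroup.of_card (n := 1) (by rw [Nat.card_zpowers, Subgroup.orderOf_coe, hy, pow_one])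
      letI actY : MulAction ↥(Subgroup.zpowers (y : G)) ↥I :=
        { smul := fun k s => ⟨k.1 * s.1 * k.1⁻¹, hstab _ (Subgroup.zpowers_le.2 y.2 k.2) _ s.2⟩
          one_smul := fun s => Subtype.ext (by show (1 : G) * s.1 * (1 : G)⁻¹ = s.1; group)
          mul_smul := fun a b s => Subtype.ext (by
            show a.1 * b.1 * s.1 * (a.1 * b.1)⁻¹ = a.1 * (b.1 * s.1 * b.1⁻¹) * a.1⁻¹
            group) }
      obtain ⟨s, hs⟩ := hzy.nonempty_fixed_point_of_prime_not_dvd_card ↥I (hI2 p hp hp2)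
      have hs' : (y : G) * s.1 * (y : G)⁻¹ = s.1 :=
        congrArg Subtype.val (hs ⟨y, Subgroup.mem_zpowers _⟩)
      have hyo : orderOf (y : G) = p := by rw [Subgroup.orderOf_coe, hy]
      have h4 := hfour s.1 s.2.1 s.2.2.1 s.2.2.2 y (mul_inv_eq_iff_eq_mul.1 hs') (hCt _ y.2)
      have hy2 : (y : G) * (y : G) = 1 := by
        rcases h4 with e | e | e | e <;> rw [e]
        · exact one_mul 1
        · exact mul_self_of_orderOf_two ht
        · exact mul_self_of_orderOf_two s.2.2.1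
        · rw [show t * s.1 * (t * s.1) = t * (s.1 * t) * s.1 by group, htZ _ s.2.1]
          rw [← mul_assoc, mul_self_of_orderOf_two ht, one_mul, mul_self_of_orderOf_two s.2.2.1]
      have := orderOf_dvd_of_pow_eq_one (show (y : G) ^ 2 = 1 by rw [pow_two, hy2])
      rw [hyo] at this
      exact hp2 ((Nat.prime_dvd_prime_iff_eq hp Nat.prime_two).1 this)
  exact T.3 hC2 hTC

end CfsgLib.SelfCentralNC
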